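import Mathlib

/-!
Distinguishing numbers of uniprimitive groups: every pair of points is distinguished by at
least `√n / 2` points.
-/

set_option autoImplicit false

namespace Cfsg.Agent.PrimDeg

open scoped Classical Pointwise

variable (G : Type*) [Group G] {Ω : Type*} [MulAction G Ω] [Fintype Ω]

/-- The pairs `(z, x)` and `(z, y)` lie in the same orbital. -/
def SameColour (z x y : Ω) : Prop := ∃ h : G, h • z = z ∧ h • x = y

/-- The points distinguishing `x` from `y`. -/
noncomputable def dset (x y : Ω) : Finset Ω := Finset.univ.filter fun z => ¬ SameColour G z x y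

/-- The suborbit of `x` at `z`. -/
noncomputable def sub (z x : Ω) : Finset Ω := Finset.univ.filter fun y => SameColour G z x y

variable {G}

theorem SameColour.refl (z x : Ω) : SameColour G z x x := ⟨1, one_smul _ _, one_smul _ _⟩

theorem SameColour.symm {z x y : Ω} (e : SameColour G z x y) : SameColour G z y x := by
  obtain ⟨h, h1, h2⟩ := e
  exact ⟨h⁻¹, by rw [inv_smul_eq_iff, h1], by rw [inv_smul_eq_iff, h2]⟩

theorem SameColour.trans {z x y w : Ω} (e : SameColour G z x y) (e' : SameColour G z y w) :
    SameColour G z x w := by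
  obtain ⟨h, h1, h2⟩ := e
  obtain ⟨k, k1, k2⟩ := e'
  exact ⟨k * h, by rw [mul_smul, h1, k1], by rw [mul_smul, h2, k2]⟩

theorem SameColour.smul {z x y : Ω} (e : SameColour G z x y) (k : G) :
    SameColour G (k • z) (k • x) (k • y) := by
  obtain ⟨h, h1, h2⟩ := e
  refine ⟨k * h * k⁻¹, ?_, ?_⟩ <;> simp [mul_smul, h1, h2]

theorem sameColour_smul_iff {z x y : Ω} (k : G) :
    SameColour G (k • z) (k • x) (k • y) ↔ SameColour G z x y :=
  ⟨fun e => by simpa using e.smul k⁻¹, fun e => e.smul k⟩

theorem dset_comm (x y : Ω) : dset G x y = dset G y x := by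
  ext z
  simp only [dset, Finset.mem_filter, Finset.mem_univ, true_and]
  exact ⟨fun e e' => e e'.symm, fun e e' => e e'.symm⟩

theorem dset_self (x : Ω) : dset G x x = ∅ := by
  ext z
  simp [dset, SameColour.refl]

theorem card_dset_triangle (x y w : Ω) :
    (dset G x w).card ≤ (dset G x y).card + (dset G y w).card := by
  refine le_trans (Finset.card_le_card ?_) (Finset.card_union_le _ _)
  intro z hz
  simp only [dset, Finset.mem_filter, Finset.mem_univ, true_and, Finset.mem_union] at hz ⊢
  by_contra hc
  push Not at hc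
  exact hz (hc.1.trans hc.2)

theorem card_dset_smul (k : G) (x y : Ω) : (dset G (k • x) (k • y)).card = (dset G x y).card := by
  refine (Finset.card_bij (fun z _ => k • z) ?_ ?_ ?_).symm
  · intro z hz
    simp only [dset, Finset.mem_filter, Finset.mem_univ, true_and] at hz ⊢
    rwa [sameColour_smul_iff]
  · intro _ _ _ _ e; exact MulAction.injective k e
  · intro w hw
    refine ⟨k⁻¹ • w, ?_, smul_inv_smul _ _⟩
    simp only [dset, Finset.mem_filter, Finset.mem_univ, true_and] at hw ⊢
    rwa [← sameColour_smul_iff k, smul_inv_smul]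

theorem card_sub_smul (k : G) (z x : Ω) : (sub G (k • z) (k • x)).card = (sub G z x).card := by
  refine (Finset.card_bij (fun z _ => k • z) ?_ ?_ ?_).symm
  · intro y hy
    simp only [sub, Finset.mem_filter, Finset.mem_univ, true_and] at hy ⊢
    exact hy.smul k
  · intro _ _ _ _ e; exact MulAction.injective k e
  · intro w hw
    refine ⟨k⁻¹ • w, ?_, smul_inv_smul _ _⟩
    simp only [sub, Finset.mem_filter, Finset.mem_univ, true_and] at hw ⊢
    rwa [← sameColour_smul_iff k, smul_inv_smul]

/-- Some pair is distinguished by at least `n + 1 - n₁` points. -/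
theorem exists_dset_large [MulAction.IsPretransitive G Ω] (n₁ : ℕ)
    (hn₁ : ∀ z x : Ω, x ≠ z → (sub G z x).card ≤ n₁) (hn : 1 < Fintype.card Ω) :
    ∃ x y : Ω, x ≠ y ∧ Fintype.card Ω + 1 ≤ n₁ + (dset G x y).card := by
  by_contra hc
  push Not at hc
  set n := Fintype.card Ω with hndef
  have h1 : ∀ x : Ω, ∑ y, (dset G x y).card ≤ (n - 1) * (n - n₁) := by
    intro x
    rw [← Finset.sum_erase (Finset.univ : Finset Ω) (f := fun y => (dset G x y).card) (a := x)
      (by simp [dset_self])]
    refine le_trans (Finset.sum_le_card_nsmul _ _ (n - n₁) ?_) (by simp [hndef])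
    intro y hy
    have := hc x y (Finset.ne_of_mem_erase hy).symm
    omega
  have h2 : ∀ z : Ω, (n - 1) + (n - 1) * (n - n₁) ≤
      ∑ x, ∑ y, if z ∈ dset G x y then 1 else 0 := by
    intro z
    have e : ∀ x, (∑ y, if z ∈ dset G x y then 1 else 0) = n - (sub G z x).card := by
      intro x
      rw [Finset.sum_boole, Nat.cast_id, ← Finset.card_compl]
      congr 1
      ext y
      simp [dset, sub]
    simp only [e]
    rw [← Finset.add_sum_erase _ _ (Finset.mem_univ z)]
    refine Nat.add_le_add ?_ ?_
    · have : sub G z z = {z} := by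
        ext y
        simp only [sub, Finset.mem_filter, Finset.mem_univ, true_and, Finset.mem_singleton]
        exact ⟨fun ⟨h, h1, h2⟩ => h2.symm.trans h1, fun e => e ▸ SameColour.refl _ _⟩
      simp [this]
    · refine le_trans (le_of_eq ?_) (Finset.card_nsmul_le_sum _ _ (n - n₁) ?_)
      · simp [hndef]
      · intro x hx
        have := hn₁ z x (Finset.ne_of_mem_erase hx)
        omega
  have h3 : ∑ z : Ω, ((n - 1) + (n - 1) * (n - n₁)) ≤
      ∑ z : Ω, ∑ x, ∑ y, if z ∈ dset G x y then 1 else 0 := Finset.sum_le_sum fun z _ => h2 z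
  rw [Finset.sum_comm] at h3
  have h4 : ∀ x : Ω, (∑ z : Ω, ∑ y : Ω, if z ∈ dset G x y then 1 else 0) =
      ∑ y : Ω, (dset G x y).card := by
    intro x
    rw [Finset.sum_comm]
    simp
  simp only [h4] at h3
  have h5 := h3.trans (Finset.sum_le_sum fun x _ => h1 x)
  simp only [Finset.sum_const, Finset.card_univ, smul_eq_mul, ← hndef] at h5
  have := Nat.le_of_mul_le_mul_left h5 (by omega)
  omega

/-- The graph of an orbital. -/
def ogr (G : Type*) [Group G] [MulAction G Ω] (a b : Ω) : SimpleGraph Ω where
  Adj x y := x ≠ y ∧ ∃ h : G, (h • a = x ∧ h • b = y) ∨ (h • a = y ∧ h • b = x)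
  symm := ⟨fun _ _ ⟨ne, h, e⟩ => ⟨ne.symm, h, e.symm⟩⟩
  loopless := ⟨fun _ e => e.1 rfl⟩

variable {a b : Ω}

theorem ogr_adj_smul (k : G) {x y : Ω} (e : (ogr G a b).Adj x y) :
    (ogr G a b).Adj (k • x) (k • y) := by
  obtain ⟨ne, h, e⟩ := e
  refine ⟨fun c => ne (MulAction.injective k c), k * h, ?_⟩
  rcases e with ⟨e1, e2⟩ | ⟨e1, e2⟩ <;> simp [mul_smul, e1, e2]

/-- A group element as a homomorphism of an orbital graph. -/
def ogrHom (k : G) : (ogr G a b) →g (ogr G a b) where
  toFun x := k • x
  map_rel' e := ogr_adj_smul k e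

theorem ogr_connected (hprim : MulAction.IsPreprimitive G Ω) (hab : a ≠ b) :
    (ogr G a b).Connected := by
  set Γ := ogr G a b
  let C : Set Ω := {y | Γ.Reachable a y}
  have hmem : ∀ (k : G) (y : Ω), y ∈ k • C ↔ Γ.Reachable (k • a) y := by
    intro k y
    rw [Set.mem_smul_set_iff_inv_smul_mem]
    constructor
    · intro e
      have := SimpleGraph.Reachable.map (ogrHom k) e
      simpa [ogrHom] using this
    · intro e
      have := SimpleGraph.Reachable.map (ogrHom k⁻¹) e
      simpa [ogrHom, C] using this
  have hblock : MulAction.IsBlock G C := by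
    rw [MulAction.isBlock_iff_smul_eq_or_disjoint]
    intro k
    by_cases hr : Γ.Reachable a (k • a)
    · left
      ext y
      rw [hmem]
      exact ⟨fun e => hr.trans e, fun e => hr.symm.trans e⟩
    · right
      rw [Set.disjoint_left]
      intro y hy hy'
      rw [hmem] at hy
      exact hr (SimpleGraph.Reachable.trans hy' hy.symm)
  have hb : b ∈ C := SimpleGraph.Adj.reachable
    (show Γ.Adj a b from ⟨hab, 1, Or.inl ⟨one_smul _ _, one_smul _ _⟩⟩)
  rcases hprim.isTrivialBlock_of_isBlock hblock with hs | hu
  · exact absurd (hs (SimpleGraph.Reachable.refl a : a ∈ C) hb) hab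
  · have : ∀ y, Γ.Reachable a y := fun y => by
      have : y ∈ C := hu ▸ Set.mem_univ y
      exact this
    exact { preconnected := fun x y => (this x).symm.trans (this y), nonempty := ⟨a⟩ }

theorem ogr_dist_smul (hc : (ogr G a b).Connected) (k : G) (x y : Ω) :
    (ogr G a b).dist (k • x) (k • y) = (ogr G a b).dist x y := by
  have key : ∀ (k : G) (x y : Ω),
      (ogr G a b).dist (k • x) (k • y) ≤ (ogr G a b).dist x y := by
    intro k x y
    obtain ⟨p, hp⟩ := hc.exists_walk_length_eq_dist x y
    have := SimpleGraph.dist_le (p.map (ogrHom k))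
    rw [SimpleGraph.Walk.length_map, hp] at this
    exact this
  refine le_antisymm (key k x y) ?_
  simpa using key k⁻¹ (k • x) (k • y)

theorem SameColour.dist_eq (hc : (ogr G a b).Connected) {z x y : Ω} (e : SameColour G z x y) :
    (ogr G a b).dist z x = (ogr G a b).dist z y := by
  obtain ⟨h, h1, h2⟩ := e
  rw [← ogr_dist_smul hc h z x, h1, h2]

theorem card_dset_of_adj {x y : Ω} (e : (ogr G a b).Adj x y) :
    (dset G x y).card = (dset G a b).card := by
  obtain ⟨-, h, ⟨e1, e2⟩ | ⟨e1, e2⟩⟩ := e
  · rw [← e1, ← e2, card_dset_smul]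
  · rw [← e1, ← e2, card_dset_smul, dset_comm]

theorem card_dset_le_dist_mul (hc : (ogr G a b).Connected) (x y : Ω) :
    (dset G x y).card ≤ (ogr G a b).dist x y * (dset G a b).card := by
  obtain ⟨p, hp⟩ := hc.exists_walk_length_eq_dist x y
  rw [← hp]
  clear hp
  induction p with
  | nil => simp [dset_self]
  | @cons u v w hadj q ih =>
    have := card_dset_triangle (G := G) u v w
    rw [card_dset_of_adj hadj] at this
    rw [SimpleGraph.Walk.length_cons, Nat.succ_mul]
    omega

theorem exists_adj_dist_pred (hc : (ogr G a b).Connected) {z x : Ω} (hne : x ≠ z) :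
    ∃ y, (ogr G a b).Adj x y ∧ (ogr G a b).dist z y + 1 = (ogr G a b).dist z x := by
  obtain ⟨p, hp⟩ := hc.exists_walk_length_eq_dist x z
  cases p with
  | nil => exact absurd rfl hne
  | @cons _ v _ hadj q =>
    refine ⟨v, hadj, ?_⟩
    rw [SimpleGraph.Walk.length_cons] at hp
    have h1 := SimpleGraph.dist_le q
    have h2 := hc.dist_triangle (u := x) (v := v) (w := z)
    rw [SimpleGraph.dist_eq_one_iff_adj.2 hadj] at h2
    rw [SimpleGraph.dist_comm, @SimpleGraph.dist_comm _ _ z x]
    omega

theorem exists_dist_eq (hc : (ogr G a b).Connected) (z : Ω) :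
    ∀ {x : Ω} {l : ℕ}, l ≤ (ogr G a b).dist z x → ∃ y, (ogr G a b).dist z y = l := by
  suffices ∀ (j : ℕ) (x : Ω) (l : ℕ), l + j = (ogr G a b).dist z x →
      ∃ y, (ogr G a b).dist z y = l by
    intro x l hl
    exact this ((ogr G a b).dist z x - l) x l (by omega)
  intro j
  induction j with
  | zero => intro x l e; exact ⟨x, by omega⟩
  | succ j ih =>
    intro x l e
    have hne : x ≠ z := by
      rintro rfl
      simp at e
    obtain ⟨y, -, hy⟩ := exists_adj_dist_pred hc hne
    exact ih y l (by omega)

/-- The neighbours of a point in an orbital graph. -/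
noncomputable def nb (G : Type*) [Group G] [MulAction G Ω] (a b x : Ω) : Finset Ω :=
  Finset.univ.filter fun y => (ogr G a b).Adj x y

theorem card_nb [MulAction.IsPretransitive G Ω] (x y : Ω) :
    (nb G a b x).card = (nb G a b y).card := by
  obtain ⟨k, rfl⟩ := MulAction.exists_smul_eq G x y
  refine Finset.card_bij (fun z _ => k • z) ?_ ?_ ?_
  · intro z hz
    simp only [nb, Finset.mem_filter, Finset.mem_univ, true_and] at hz ⊢
    exact ogr_adj_smul k hz
  · intro _ _ _ _ e; exact MulAction.injective k e
  · intro w hw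
    refine ⟨k⁻¹ • w, ?_, smul_inv_smul _ _⟩
    simp only [nb, Finset.mem_filter, Finset.mem_univ, true_and] at hw ⊢
    simpa using ogr_adj_smul k⁻¹ hw

/-- Counting distinguished edges. -/
theorem two_mul_card_le_dset_mul_nb [MulAction.IsPretransitive G Ω]
    (hc : (ogr G a b).Connected) :
    2 * (Fintype.card Ω - 1) ≤ (nb G a b a).card * (dset G a b).card := by
  set Γ := ogr G a b
  set E : Ω → Finset (Ω × Ω) := fun z =>
    (Finset.univ : Finset (Ω × Ω)).filter fun p => Γ.Adj p.1 p.2 ∧ z ∈ dset G p.1 p.2
  have hlow : ∀ z : Ω, 2 * (Fintype.card Ω - 1) ≤ (E z).card := by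
    intro z
    have hex : ∀ x : {x : Ω // x ≠ z}, ∃ y, Γ.Adj x.1 y ∧ Γ.dist z y + 1 = Γ.dist z x.1 :=
      fun x => exists_adj_dist_pred hc x.2
    choose par hadj hd using hex
    have hmem : ∀ x : {x : Ω // x ≠ z},
        (x.1, par x) ∈ E z ∧ (par x, x.1) ∈ E z := by
      intro x
      have hz : z ∈ dset G x.1 (par x) := by
        simp only [dset, Finset.mem_filter, Finset.mem_univ, true_and]
        intro e
        have : Γ.dist z x.1 = Γ.dist z (par x) := e.dist_eq hc
        have := hd x
        omega
      refine ⟨?_, ?_⟩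
      · simp only [E, Finset.mem_filter, Finset.mem_univ, true_and]
        exact ⟨hadj x, hz⟩
      · simp only [E, Finset.mem_filter, Finset.mem_univ, true_and]
        exact ⟨(hadj x).symm, dset_comm (G := G) x.1 (par x) ▸ hz⟩
    let f : {x : Ω // x ≠ z} ⊕ {x : Ω // x ≠ z} → Ω × Ω :=
      Sum.elim (fun x => (x.1, par x)) (fun x => (par x, x.1))
    have hinj : Function.Injective f := by
      have cross : ∀ x y, f (Sum.inl x) ≠ f (Sum.inr y) := by
        intro x y e
        simp only [f, Sum.elim_inl, Sum.elim_inr, Prod.mk.injEq] at e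
        have := hd x
        have := hd y
        rw [e.2] at *
        rw [← e.1] at *
        omega
      rintro (x | x) (y | y) e
      · simp only [f, Sum.elim_inl, Prod.mk.injEq] at e
        rw [Subtype.ext e.1]
      · exact absurd e (cross x y)
      · exact absurd e.symm (cross y x)
      · simp only [f, Sum.elim_inr, Prod.mk.injEq] at e
        rw [Subtype.ext e.2]
    have hcard : Fintype.card ({x : Ω // x ≠ z} ⊕ {x : Ω // x ≠ z}) =
        2 * (Fintype.card Ω - 1) := by
      simp [Fintype.card_subtype_compl, two_mul]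
    rw [← hcard, ← Finset.card_univ]
    refine Finset.card_le_card_of_injOn f ?_ hinj.injOn
    rintro (x | x) -
    · exact (hmem x).1
    · exact (hmem x).2
  have hup : ∑ z, (E z).card =
      Fintype.card Ω * ((nb G a b a).card * (dset G a b).card) := by
    have e : ∀ z, (E z).card =
        ∑ x, ∑ y ∈ nb G a b x, if z ∈ dset G x y then 1 else 0 := by
      intro z
      rw [show (E z).card = _ from Finset.card_filter _ _, Fintype.sum_prod_type]
      refine Finset.sum_congr rfl fun x _ => ?_
      rw [nb, Finset.sum_filter]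
      refine Finset.sum_congr rfl fun y _ => ?_
      by_cases h1 : Γ.Adj x y <;> simp [Γ, h1] at * <;> simp [h1]
    simp only [e]
    rw [Finset.sum_comm]
    rw [Finset.sum_congr rfl (g := fun _ => (nb G a b a).card * (dset G a b).card)]
    · simp
    · intro x _
      rw [Finset.sum_comm, Finset.sum_congr rfl (g := fun _ => (dset G a b).card)]
      · simp [card_nb (G := G) x a]
      · intro y hy
        rw [← card_dset_of_adj (G := G) (a := a) (b := b) (Finset.mem_filter.1 hy).2]
        simp
  have h3 : Fintype.card Ω * (2 * (Fintype.card Ω - 1)) ≤ ∑ z, (E z).card := by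
    simpa using Finset.card_nsmul_le_sum Finset.univ (fun z => (E z).card) _ fun z _ => hlow z
  rw [hup] at h3
  exact Nat.le_of_mul_le_mul_left h3 (Fintype.card_pos_iff.2 ⟨a⟩)

theorem sub_subset_level (hc : (ogr G a b).Connected) {z w y : Ω} (hy : y ∈ sub G z w) :
    (ogr G a b).dist z y = (ogr G a b).dist z w :=
  ((Finset.mem_filter.1 hy).2.dist_eq hc).symm

/-- Spheres two apart from the one of `w` have neighbourhoods outside it. -/
theorem mul_card_nb_add_card_sub_le [MulAction.IsPretransitive G Ω]
    (hc : (ogr G a b).Connected) (z w u : Ω) (C : Finset ℕ)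
    (hle : ∀ l ∈ C, l ≤ (ogr G a b).dist z u)
    (hgap : ∀ l ∈ C, l + 2 ≤ (ogr G a b).dist z w ∨ (ogr G a b).dist z w + 2 ≤ l)
    (hsep : ∀ l ∈ C, ∀ l' ∈ C, l ≠ l' → l + 3 ≤ l' ∨ l' + 3 ≤ l) :
    C.card * (nb G a b a).card + (sub G z w).card ≤ Fintype.card Ω := by
  set Γ := ogr G a b
  have hex : ∀ l : ℕ, ∃ y, l ∈ C → Γ.dist z y = l := by
    intro l
    by_cases hl : l ∈ C
    · obtain ⟨y, hy⟩ := exists_dist_eq hc z (hle l hl)
      exact ⟨y, fun _ => hy⟩
    · exact ⟨z, fun e => absurd e hl⟩
  choose pt hpt using hex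
  have hlev : ∀ l ∈ C, ∀ y ∈ nb G a b (pt l), Γ.dist z y + 1 ≥ l ∧ Γ.dist z y ≤ l + 1 := by
    intro l hl y hy
    have hy' : Γ.Adj (pt l) y := (Finset.mem_filter.1 hy).2
    have h1 := hc.dist_triangle (u := z) (v := pt l) (w := y)
    have h2 := hc.dist_triangle (u := z) (v := y) (w := pt l)
    rw [SimpleGraph.dist_eq_one_iff_adj.2 hy', hpt l hl] at h1
    rw [SimpleGraph.dist_eq_one_iff_adj.2 hy'.symm, hpt l hl] at h2
    omega
  have hdisj : (C : Set ℕ).PairwiseDisjoint fun l => nb G a b (pt l) := by
    intro l hl l' hl' hne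
    simp only [Function.onFun, Finset.disjoint_left]
    intro y hy hy'
    have := hlev l hl y hy
    have := hlev l' hl' y hy'
    have := hsep l hl l' hl' hne
    omega
  have hcard : (C.biUnion fun l => nb G a b (pt l)).card = C.card * (nb G a b a).card := by
    rw [Finset.card_biUnion hdisj, Finset.sum_congr rfl (fun l _ => card_nb (G := G) (pt l) a)]
    simp
  rw [← hcard, ← Finset.card_union_of_disjoint]
  · exact Finset.card_le_univ _
  · simp only [Finset.disjoint_left, Finset.mem_biUnion]
    rintro y ⟨l, hl, hy⟩ hy'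
    have := hlev l hl y hy
    have : Γ.dist z y = Γ.dist z w := sub_subset_level hc hy'
    have : l + 2 ≤ Γ.dist z w ∨ Γ.dist z w + 2 ≤ l := hgap l hl
    omega

theorem exists_centres (d L : ℕ) (hd : 3 ≤ d) (hL : L ≤ d) (hL1 : 1 ≤ L) :
    ∃ C : Finset ℕ, (∀ l ∈ C, l ≤ d) ∧ (∀ l ∈ C, l + 2 ≤ L ∨ L + 2 ≤ l) ∧
      (∀ l ∈ C, ∀ l' ∈ C, l ≠ l' → l + 3 ≤ l' ∨ l' + 3 ≤ l) ∧ d ≤ 5 * C.card := by
  refine ⟨(Finset.range ((L + 1) / 3)).image (fun t => 3 * t) ∪
    (Finset.range ((d + 1 - L) / 3)).image (fun t => L + 2 + 3 * t), ?_, ?_, ?_, ?_⟩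
  · intro l hl
    simp only [Finset.mem_union, Finset.mem_image, Finset.mem_range] at hl
    obtain ⟨t, ht, rfl⟩ | ⟨t, ht, rfl⟩ := hl <;> omega
  · intro l hl
    simp only [Finset.mem_union, Finset.mem_image, Finset.mem_range] at hl
    obtain ⟨t, ht, rfl⟩ | ⟨t, ht, rfl⟩ := hl <;> omega
  · intro l hl l' hl' hne
    simp only [Finset.mem_union, Finset.mem_image, Finset.mem_range] at hl hl'
    obtain ⟨t, ht, rfl⟩ | ⟨t, ht, rfl⟩ := hl <;> obtain ⟨s, hs, rfl⟩ | ⟨s, hs, rfl⟩ := hl' <;>
      omega
  · rw [Finset.card_union_of_disjoint, Finset.card_image_of_injective _ (fun x y e => by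
      simpa using e), Finset.card_image_of_injective _ (fun x y e => by simpa using e)]
    · simp only [Finset.card_range]; omega
    · simp only [Finset.disjoint_left, Finset.mem_image, Finset.mem_range]
      rintro _ ⟨t, ht, rfl⟩ ⟨s, hs, e⟩
      omega

/-- **Babai**: in a uniprimitive group every pair is distinguished by `√n / 2` points. -/
theorem card_le_four_mul_dset_sq (hprim : MulAction.IsPreprimitive G Ω)
    (hnot : ∃ z x y : Ω, x ≠ z ∧ y ≠ z ∧ ¬ SameColour G z x y) (hab : a ≠ b) :
    Fintype.card Ω ≤ 4 * (dset G a b).card ^ 2 := by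
  haveI := hprim.toIsPretransitive
  set n := Fintype.card Ω with hn
  set D := (dset G a b).card with hD
  set Γ := ogr G a b
  have hc : Γ.Connected := ogr_connected hprim hab
  have h2n : 1 < n := Fintype.one_lt_card_iff.2 ⟨a, b, hab⟩
  obtain ⟨v0, v1, hv0, hv1, hv01⟩ : ∃ x y : Ω, x ≠ a ∧ y ≠ a ∧ ¬ SameColour G a x y := by
    obtain ⟨z, x, y, hx, hy, hxy⟩ := hnot
    obtain ⟨k, rfl⟩ := MulAction.exists_smul_eq G z a
    exact ⟨k • x, k • y, fun e => hx (MulAction.injective k e),
      fun e => hy (MulAction.injective k e), fun e => hxy ((sameColour_smul_iff k).1 e)⟩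
  obtain ⟨w, hw, hwmax⟩ := Finset.exists_max_image (Finset.univ.erase a)
    (fun x => (sub G a x).card) ⟨b, by simp [hab.symm]⟩
  have hwa : w ≠ a := Finset.ne_of_mem_erase hw
  set n₁ := (sub G a w).card with hn₁
  have hmax : ∀ z x : Ω, x ≠ z → (sub G z x).card ≤ n₁ := by
    intro z x hx
    obtain ⟨k, hk⟩ := MulAction.exists_smul_eq G z a
    rw [← card_sub_smul k, hk]
    exact hwmax _ (by simp [← hk, hx])
  obtain ⟨x0, y0, -, hbig⟩ := exists_dset_large n₁ hmax h2n
  obtain ⟨k0, hk0⟩ := MulAction.exists_smul_eq G x0 a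
  rw [← card_dset_smul k0, hk0] at hbig
  have hdist : (dset G a (k0 • y0)).card ≤ Γ.dist a (k0 • y0) * D :=
    card_dset_le_dist_mul hc _ _
  have hedge : 2 * (n - 1) ≤ (nb G a b a).card * D := two_mul_card_le_dset_mul_nb hc
  set k := (nb G a b a).card with hk
  obtain ⟨u, -, humax⟩ := Finset.exists_max_image (Finset.univ : Finset Ω)
    (fun x => Γ.dist a x) ⟨a, Finset.mem_univ a⟩
  set d := Γ.dist a u with hd
  have hdmax : ∀ x, Γ.dist a x ≤ d := fun x => humax x (Finset.mem_univ x)
  have hLpos : 1 ≤ Γ.dist a w := hc.pos_dist_of_ne hwa.symm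
  have hkey : n + 1 ≤ n₁ + d * D := by
    have := Nat.mul_le_mul_right D (hdmax (k0 • y0))
    omega
  have hn₁le : n₁ ≤ n := Finset.card_le_univ _
  by_cases hd3 : 3 ≤ d
  · obtain ⟨C, hC1, hC2, hC3, hC4⟩ := exists_centres d (Γ.dist a w) hd3 (hdmax w) hLpos
    have hpack : C.card * k + n₁ ≤ n := mul_card_nb_add_card_sub_le hc a w u C hC1 hC2 hC3
    have h5 : k ≤ 5 * D := by
      by_contra hlt
      push Not at hlt
      have h1 : C.card * (5 * D + 1) ≤ C.card * k := Nat.mul_le_mul_left _ hlt
      have h2 : d * D ≤ 5 * C.card * D := Nat.mul_le_mul_right _ hC4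
      have h3 : C.card * (5 * D + 1) = 5 * C.card * D + C.card := by ring
      omega
    have : k * D ≤ 5 * D * D := Nat.mul_le_mul_right _ h5
    have : D ^ 2 = D * D := sq D
    have h35 : 5 * D * D = 5 * (D * D) := by ring
    have hn2 : 3 ≤ n ∨ n = 2 := by omega
    rcases hn2 with hn3 | hn2
    · omega
    · have : 0 < D := by
        by_contra h0
        simp only [not_lt, Nat.le_zero] at h0
        rw [h0] at hedge
        omega
      have : 1 ≤ D * D := Nat.mul_pos this this
      omega
  · push Not at hd3
    by_cases hall : ∀ v, v ≠ a → Γ.Adj a v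
    · have hd1 : d ≤ 1 := by
        by_cases e : u = a
        · simp [hd, e]
        · rw [hd, SimpleGraph.dist_eq_one_iff_adj.2 (hall u e)]
      obtain ⟨kb, hkb⟩ := MulAction.exists_smul_eq G b a
      set b' := kb • a
      have hb'a : b' ≠ a := fun e => hab (MulAction.injective kb (e.trans hkb.symm))
      have hcls : ∀ y, y ≠ a → SameColour G a b y ∨ SameColour G a b' y := by
        intro y hy
        obtain ⟨-, h, ⟨e1, e2⟩ | ⟨e1, e2⟩⟩ := hall y hy
        · exact Or.inl ⟨h, e1, e2⟩
        · exact Or.inr ⟨h * kb⁻¹, by rw [mul_smul, ← hkb, inv_smul_smul, e2, hkb],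
            by rw [mul_smul, show b' = kb • a from rfl, inv_smul_smul, e1]⟩
      have hdj : Disjoint (sub G a b) (sub G a b') := by
        rw [Finset.disjoint_left]
        intro y hy hy'
        simp only [sub, Finset.mem_filter, Finset.mem_univ, true_and] at hy hy'
        have hbb : SameColour G a b b' := hy.trans hy'.symm
        have all : ∀ y, y ≠ a → SameColour G a b y := fun y hy =>
          (hcls y hy).elim id fun e => hbb.trans e
        exact hv01 ((all v0 hv0).symm.trans (all v1 hv1))
      have heq : (sub G a b).card = (sub G a b').card := by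
        set R : Ω → Ω → Prop := fun x y => ∃ h : G, h • a = x ∧ h • b = y with hR
        have hout : ∀ x, (Finset.univ.filter fun y => R x y).card = (sub G a b).card := by
          intro x
          obtain ⟨m, hm⟩ := MulAction.exists_smul_eq G a x
          rw [← card_sub_smul m a b, hm]
          congr 1
          ext y
          simp only [sub, Finset.mem_filter, Finset.mem_univ, true_and, hR]
          constructor
          · rintro ⟨h, e1, e2⟩
            exact ⟨h * m⁻¹, by rw [mul_smul, ← hm, inv_smul_smul, e1, hm],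
              by rw [mul_smul, inv_smul_smul, e2]⟩
          · rintro ⟨h, e1, e2⟩
            exact ⟨h * m, by rw [mul_smul, hm, e1], by rw [mul_smul, e2]⟩
        have hin : ∀ y, (Finset.univ.filter fun x => R x y).card = (sub G a b').card := by
          intro y
          obtain ⟨m, hm⟩ := MulAction.exists_smul_eq G a y
          rw [← card_sub_smul m a b', hm]
          congr 1
          ext x
          simp only [sub, Finset.mem_filter, Finset.mem_univ, true_and, hR]
          constructor
          · rintro ⟨h, e1, e2⟩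
            refine ⟨h * kb⁻¹ * m⁻¹, ?_, ?_⟩
            · rw [mul_smul, ← hm, inv_smul_smul, mul_smul, ← hkb, inv_smul_smul, e2, ← hm, hkb]
            · rw [mul_smul, inv_smul_smul, mul_smul, show b' = kb • a from rfl, inv_smul_smul,
                e1]
          · rintro ⟨h, e1, e2⟩
            refine ⟨h * m * kb, ?_, ?_⟩
            · rw [mul_smul, show kb • a = b' from rfl, mul_smul, e2]
            · rw [mul_smul, hkb, mul_smul, hm, e1]
        have h1 : ∑ x, (Finset.univ.filter fun y => R x y).card =
            ∑ y, (Finset.univ.filter fun x => R x y).card := by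
          simp only [Finset.card_filter]
          exact Finset.sum_comm
        simp only [hout, hin, Finset.sum_const, Finset.card_univ, smul_eq_mul] at h1
        exact Nat.eq_of_mul_eq_mul_left (by omega) h1
      have hsum : (sub G a b).card + (sub G a b').card ≤ n - 1 := by
        rw [← Finset.card_union_of_disjoint hdj, hn, ← Finset.card_univ,
          ← Finset.card_erase_of_mem (Finset.mem_univ a)]
        refine Finset.card_le_card ?_
        intro y hy
        simp only [Finset.mem_union, sub, Finset.mem_filter, Finset.mem_univ, true_and] at hy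
        refine Finset.mem_erase.2 ⟨fun e => ?_, Finset.mem_univ y⟩
        subst e
        rcases hy with e | e
        · obtain ⟨h, h1, h2⟩ := e
          exact hab (MulAction.injective h (h1.trans h2.symm))
        · obtain ⟨h, h1, h2⟩ := e
          exact hb'a (MulAction.injective h (h2.trans h1.symm))
      have hw2 : n₁ = (sub G a b).card ∨ n₁ = (sub G a b').card := by
        rcases hcls w hwa with e | e
        · left
          rw [hn₁]; congr 1; ext y
          simp only [sub, Finset.mem_filter, Finset.mem_univ, true_and]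
          exact ⟨fun e' => e.trans e', fun e' => e.symm.trans e'⟩
        · right
          rw [hn₁]; congr 1; ext y
          simp only [sub, Finset.mem_filter, Finset.mem_univ, true_and]
          exact ⟨fun e' => e.trans e', fun e' => e.symm.trans e'⟩
      have hDge : n ≤ 2 * D := by
        have := Nat.mul_le_mul_right D hd1
        omega
      calc n ≤ 2 * D := hDge
        _ ≤ 4 * D ^ 2 := by nlinarith
    · push Not at hall
      obtain ⟨v, hva, hv⟩ := hall
      by_cases hL : Γ.dist a w = 1
      · have hsubk : n₁ ≤ k := by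
          refine Finset.card_le_card ?_
          intro y hy
          simp only [nb, Finset.mem_filter, Finset.mem_univ, true_and]
          exact SimpleGraph.dist_eq_one_iff_adj.1 ((sub_subset_level hc hy).trans hL)
        have hc' : (ogr G a v).Connected := ogr_connected hprim hva.symm
        have hedge' : 2 * (n - 1) ≤ (nb G a v a).card * (dset G a v).card :=
          two_mul_card_le_dset_mul_nb hc'
        have hdj : Disjoint (nb G a v a) (nb G a b a) := by
          rw [Finset.disjoint_left]
          intro y hy hy'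
          simp only [nb, Finset.mem_filter, Finset.mem_univ, true_and] at hy hy'
          obtain ⟨-, h, ⟨e1, e2⟩ | ⟨e1, e2⟩⟩ := hy
          · apply hv
            rw [← e2] at hy'
            have := ogr_adj_smul h⁻¹ hy'
            rwa [inv_smul_smul, show h⁻¹ • a = a by rw [inv_smul_eq_iff, e1]] at this
          · apply hv
            have := ogr_adj_smul h⁻¹ hy'
            rw [show h⁻¹ • a = v by rw [inv_smul_eq_iff, e2],
              show h⁻¹ • y = a by rw [inv_smul_eq_iff, e1]] at this
            exact this.symm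
        have hk' : (nb G a v a).card + k ≤ n - 1 := by
          rw [hk, ← Finset.card_union_of_disjoint hdj, hn, ← Finset.card_univ,
            ← Finset.card_erase_of_mem (Finset.mem_univ a)]
          refine Finset.card_le_card ?_
          intro y hy
          simp only [Finset.mem_union, nb, Finset.mem_filter, Finset.mem_univ, true_and] at hy
          exact Finset.mem_erase.2 ⟨fun e => by subst e; rcases hy with e | e <;> exact e.ne rfl,
            Finset.mem_univ y⟩
        have hdv : (dset G a v).card ≤ 2 * D := by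
          refine (card_dset_le_dist_mul hc a v).trans (Nat.mul_le_mul_right D ?_)
          exact le_trans (hdmax v) (by omega)
        have h2D : (nb G a v a).card ≤ 2 * D := by
          have := Nat.mul_le_mul_right D (show d ≤ 2 by omega)
          omega
        have := Nat.mul_le_mul h2D hdv
        have e : 2 * D * (2 * D) = 4 * D ^ 2 := by ring
        omega
      · have hL2 : Γ.dist a w = 2 := by
          have := hdmax w
          omega
        have hdisj : Disjoint (insert a (nb G a b a)) (sub G a w) := by
          rw [Finset.disjoint_left]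
          intro y hy hy'
          have h1 := (sub_subset_level hc hy').trans hL2
          simp only [Finset.mem_insert, nb, Finset.mem_filter, Finset.mem_univ, true_and] at hy
          rcases hy with rfl | hy
          · simp at h1
          · rw [SimpleGraph.dist_eq_one_iff_adj.2 hy] at h1
            omega
        have hcard : k + 1 + n₁ ≤ n := by
          have : (insert a (nb G a b a)).card = k + 1 := by
            rw [Finset.card_insert_of_notMem]
            simp [nb]
          rw [← this, hn₁, ← Finset.card_union_of_disjoint hdisj]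
          exact Finset.card_le_univ _
        have : k ≤ 2 * D := by
          have := Nat.mul_le_mul_right D (show d ≤ 2 by omega)
          omega
        have := Nat.mul_le_mul_right D this
        have e : 2 * D * D = 2 * D ^ 2 := by ring
        omega

end Cfsg.Agent.PrimDeg
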